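import Cfsg.Agent.H666.Clif.Exc
import Cfsg.Agent.H76.GLB.ProdBlk

/-!
# S4536 (P5GL): irreducibility of the restriction of Brauer characters of `GL_a × GL_b` to the `p`-kernel (helper166)

`hC_prod`: the irreducible Brauer characters of the Levi subgroup `L = GL_a(F) × GL_b(F)` of `GL_n(F)` in the block with
label `(t₁, t₂)` with `t₂` of weight `1` have irreducible restriction to `L ∩ pKer (slS F n) p`.
-/

set_option autoImplicit false
set_option linter.unusedSectionVars false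
open Polynomial Cfsg
open scoped ComplexConjugate TensorProduct MatrixGroups

namespace Cfsg.Agent.H166.GLB

open Cfsg.Agent.H577.GLB Cfsg.Agent.H577.GLB.Std Cfsg.Agent.H577.GLB.Real Cfsg.Agent.H614.GLn
open Cfsg.Agent.H657 Cfsg.Agent.H624.Sl Cfsg.Agent.Blocks.Local Cfsg.Agent.H644
open Cfsg.Agent.H666.Clif

universe u

/-- quotients of subgroups -/
theorem quot_subgroupOf {G : Type*} [Group G] [Finite G] (P L : Subgroup G) [P.Normal] (hc : IsCyclic (G ⧸ P))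
    {p c : ℕ} (hp : p.Prime) (hi : P.index = p ^ c) :
    IsCyclic (L ⧸ P.subgroupOf L) ∧ ∃ c', Nat.card (L ⧸ P.subgroupOf L) = p ^ c' := by
  let f : L ⧸ P.subgroupOf L →* G ⧸ P := QuotientGroup.map (P.subgroupOf L) P L.subtype (fun x hx => hx)
  have hf : Function.Injective f := by
    rw [injective_iff_map_eq_one]
    intro x hx
    obtain ⟨y, rfl⟩ := QuotientGroup.mk_surjective x
    have h1 : ((y : G) : G ⧸ P) = 1 := hx
    rw [QuotientGroup.eq_one_iff] at h1 ⊢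
    exact h1
  refine ⟨isCyclic_of_injective f hf, ?_⟩
  have h1 : Nat.card (L ⧸ P.subgroupOf L) ∣ p ^ c := by
    rw [← hi]
    exact Subgroup.card_dvd_of_injective f hf
  obtain ⟨c', -, hc'⟩ := (Nat.dvd_prime_pow hp).1 h1
  exact ⟨c', hc'⟩

variable {F : Type u} [Field F] [Finite F] {K : Type u} [Field K] [Algebra F K] {θ : K →*₀ ℂ} {N M : ℕ} [NeZero M]
  {p : ℕ} {𝔐 : Ideal AlgInt} {V : ValuationSubring ℂ}

theorem hC_aux (hctx : Ctx F θ N M) (hpF : p ≠ ringChar F) (h𝔐 : IsPModular p 𝔐) (hV : Above 𝔐 V)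
    (hq : ((Nat.card F : ℕ) : ZMod p) = 1) {a b n m : ℕ} (hn : n ≤ N) (hm : n ≤ m) (hb0 : 0 < b)
    (e : ((Fin a → F) × (Fin b → F)) ≃ₗ[F] (Fin n → F))
    (t₁ : LabZ (Nat.card F) M m a) (t₂ : LabZ (Nat.card F) M m b) (h₂ : POnly M p t₂.t) (δ₀ : ZMod M)
    (hw : Std.bsz (t₂.t δ₀) = 1) {L : Subgroup (GL (Fin n) F)} (hL : (jj (K := F) e).range = L) {i : IBr V L}
    (hi : i ∈ ibrUnder V (prodBlk L (jj e) (famSet θ p t₁) (famSet θ p t₂))) :
    ∃ i' : IBr V ((pKer (slS F n) p).subgroupOf L), IsRes p ((pKer (slS F n) p).subgroupOf L) i {i'} := by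
  classical
  have hp := h𝔐.1
  have : Fact p.Prime := ⟨hp⟩
  have hMp := isPrime_of_isPModular h𝔐
  have hab : a + b = n := by
    have h1 := e.finrank_eq
    rwa [Module.finrank_prod, Module.finrank_fin_fun, Module.finrank_fin_fun, Module.finrank_fin_fun] at h1
  have hn0 : 0 < n := by omega
  have hbN : b ≤ N := by omega
  have hbm : b ≤ m := by omega
  have hne : Nonempty (Fin b) := ⟨⟨0, hb0⟩⟩
  have hjj : Function.Injective (jj (K := F) e) := H901.Sl.jj_injective e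
  have hmem : ∀ x, jj (K := F) e x ∈ L := fun x => hL ▸ ⟨x, rfl⟩
  set P : Subgroup (GL (Fin n) F) := pKer (slS F n) p with hP
  have hcycS : IsCyclic (GL (Fin n) F ⧸ slS F n) := isCyclic_quot_SK hn0
  have hcycP : IsCyclic (GL (Fin n) F ⧸ P) := isCyclic_quot (le_pKer (slS F n) p) hcycS
  obtain ⟨lp, lq, c, m', -, -, hlp, -, hK, -, -⟩ := exists_split (slS F n) hcycS hp
  have hidx : P.index = p ^ c := by rw [hP, hK, H666.Clif.index_ker, hlp]
  obtain ⟨hcyc, c', hc'⟩ := quot_subgroupOf P L hcycP hp hidx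
  obtain ⟨O, hOne, hO, -, -⟩ := H112.Clif.clifford_cyclic (V := V) h𝔐 hV (P.subgroupOf L) hcyc i
  obtain ⟨χ, ⟨χ₁, hχ₁, χ₂, hχ₂, hχ⟩, hiχ⟩ := hi
  obtain ⟨l, ψ, hψ, hl, ho, hfix⟩ := exists_fixed h𝔐 hV (P.subgroupOf L) hcyc hc' (B := blockOf 𝔐 (χ : L → ℂ))
    ⟨χ, rfl⟩ i ⟨χ, Blocks.Induced.sameBlock_refl hMp _, hiχ⟩ O hO
  -- the factors of `ψ`
  rw [← H76.GLB.prodBlk_blockOf h𝔐 hjj hL χ₁ χ₂ χ hχ] at hψ
  obtain ⟨ψ₁, -, ψ₂, hψ₂, hψe⟩ := hψ
  -- the order of `l` is a power of `p`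
  obtain ⟨j, hj⟩ : ∃ j, orderOf l = p ^ j := by
    have h1 := card_dvd_index h𝔐 hV (P.subgroupOf L) hcyc hO
    have h2 : (P.subgroupOf L).index = p ^ c' := hc'
    rw [h2] at h1
    obtain ⟨j, -, hj⟩ := (Nat.dvd_prime_pow hp).1 h1
    exact ⟨j, ho.trans hj⟩
  -- the second component
  let l₂ : GL (Fin b) F →* ℂˣ := (l.comp ((jj (K := F) e).codRestrict L hmem)).comp (MonoidHom.inr _ _)
  have hl₂ : ∀ x, l₂ x = l ⟨jj (K := F) e (1, x), hmem (1, x)⟩ := fun x => rfl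
  have hker : ∀ (x : GL (Fin a) F × GL (Fin b) F) (h : L), jj (K := F) e x = h →
      Matrix.GeneralLinearGroup.det x.1 * Matrix.GeneralLinearGroup.det x.2 = 1 → l h = 1 := by
    intro x h hx hd
    refine hl h ?_
    rw [Subgroup.mem_subgroupOf, ← hx]
    refine le_pKer (slS F n) p ?_
    change Matrix.GeneralLinearGroup.det (jj (K := F) e (x.1, x.2)) = 1
    rw [H901.Sl.det_jj, ← hd]
    congr 1
    apply Units.ext
    change Algebra.norm F (Matrix.GeneralLinearGroup.det x.1 : F) = _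
    rw [Algebra.norm_self]
    rfl
  have hl₂S : ∀ x ∈ slS F b, l₂ x = 1 := by
    intro x hx
    refine hker (1, x) _ rfl ?_
    rw [map_one, one_mul]
    exact hx
  have hord : orderOf l₂ = p ^ j := by
    rw [← hj]
    refine orderOf_eq_orderOf_iff.2 fun k => ?_
    constructor
    · intro hk
      ext h
      obtain ⟨x, hx⟩ : (h : GL (Fin n) F) ∈ (jj (K := F) e).range := hL ▸ h.2
      obtain ⟨y, hy⟩ := Matrix.GeneralLinearGroup.det_surjective (n := Fin b) (R := F)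
        (Matrix.GeneralLinearGroup.det x.1 * Matrix.GeneralLinearGroup.det x.2)
      have h1 : l h = l₂ y := by
        rw [hl₂, ← mul_inv_eq_one, ← map_inv, ← map_mul]
        refine hker (x * (1, y)⁻¹) _ ?_ ?_
        · rw [map_mul, map_inv, hx]
          rfl
        · rw [Prod.fst_mul, Prod.snd_mul, Prod.fst_inv, Prod.snd_inv, inv_one, mul_one, map_mul, map_inv, hy,
            ← mul_assoc, mul_inv_cancel]
      have h2 := DFunLike.congr_fun hk y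
      rw [MonoidHom.pow_apply, MonoidHom.one_apply] at h2
      rw [MonoidHom.pow_apply, MonoidHom.one_apply, h1, h2]
    · intro hk
      ext y
      have h2 := DFunLike.congr_fun hk ⟨jj (K := F) e (1, y), hmem (1, y)⟩
      rw [MonoidHom.pow_apply, MonoidHom.one_apply] at h2
      rw [MonoidHom.pow_apply, MonoidHom.one_apply, hl₂, h2]
  have hfix₂ : ∀ g, (l₂ g : ℂ) * (ψ₂ : GL (Fin b) F → ℂ) g = (ψ₂ : GL (Fin b) F → ℂ) g := by
    intro g
    have h1 := hfix ⟨jj (K := F) e (1, g), hmem (1, g)⟩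
    rw [hψe (1, g) _ rfl] at h1
    have h2 : (ψ₁ : GL (Fin a) F → ℂ) 1 ≠ 0 := Characters.Core.isIrr_apply_one_ne_zero ψ₁.2
    apply mul_left_cancel₀ h2
    rw [hl₂]
    linear_combination h1
  -- the label
  obtain ⟨χ₀, hχ₀, -⟩ := (isLab_bij hctx hbN hbm).2 t₂
  have hfam := famSet_eq hctx hpF h𝔐 hq hbN hbm (B := blockOf 𝔐 (χ₀ : GL (Fin b) F → ℂ)) ⟨χ₀, rfl⟩
    (Blocks.Induced.sameBlock_refl hMp _) hχ₀
  rw [hfam] at hχ₂
  have hψ₂' : ψ₂ ∈ blockOf 𝔐 (χ₀ : GL (Fin b) F → ℂ) :=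
    Blocks.Basic.sameBlock_trans hχ₂ hψ₂
  have hdvd := (glLin hctx hp hpF hbN hb0).dvd_bsz h𝔐 hbm (isLab_bij hctx hbN hbm)
    (B := blockOf 𝔐 (χ₀ : GL (Fin b) F → ℂ)) ⟨χ₀, rfl⟩ (Blocks.Induced.sameBlock_refl hMp _) hχ₀ h₂ hψ₂' hl₂S hord
    hfix₂ δ₀
  rw [hw, Nat.dvd_one] at hdvd
  obtain ⟨i', rfl⟩ := Finset.card_eq_one.1 (ho.symm.trans (hj.trans hdvd))
  exact ⟨i', hO⟩

/-- The Brauer characters of `L` over `(t₁, t₂)`, `t₂` of weight `1`, stay irreducible. -/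
theorem hC_prod (hctx : Ctx F θ N M) (hpF : p ≠ ringChar F) (h𝔐 : IsPModular p 𝔐) (hV : Above 𝔐 V)
    (hq : ((Nat.card F : ℕ) : ZMod p) = 1) {a b n m : ℕ} (hn : n ≤ N) (hm : n ≤ m) (hb0 : 0 < b)
    (e : ((Fin a → F) × (Fin b → F)) ≃ₗ[F] (Fin n → F))
    (t₁ : LabZ (Nat.card F) M m a) (t₂ : LabZ (Nat.card F) M m b) (h₂ : POnly M p t₂.t) (δ₀ : ZMod M)
    (hw : Std.bsz (t₂.t δ₀) = 1) {i : IBr V (jj (K := F) e).range}
    (hi : i ∈ ibrUnder V (prodBlk (jj (K := F) e).range (jj e) (famSet θ p t₁) (famSet θ p t₂))) :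
    ∃ i' : IBr V ((pKer (slS F n) p).subgroupOf (jj (K := F) e).range),
      IsRes p ((pKer (slS F n) p).subgroupOf (jj (K := F) e).range) i {i'} :=
  hC_aux hctx hpF h𝔐 hV hq hn hm hb0 e t₁ t₂ h₂ δ₀ hw rfl hi

end Cfsg.Agent.H166.GLB
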